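import Cfsg.Agent.H409.RC.Str3

/-!
# S3510, family E, box E8: `StrStmt` (helper409)
-/

set_option autoImplicit false
set_option linter.unusedSectionVars false

namespace Cfsg.Agent.H409.RC

open Cfsg Module Cfsg.Agent.LieClassical.HermBasic Cfsg.Agent.ClassicalGeometry.HermOrtho Cfsg.Agent.H380.RC

section main

variable {F : Type} [Field F] [Fintype F] {n q : ℕ} {ι : Type} {f : ι → (Fin n → F) → (Fin n → F)}

theorem finrank_pos_of_ne_bot {A : Submodule F (Fin n → F)} (h : A ≠ ⊥) : 1 ≤ finrank F A := by
  rcases Nat.eq_zero_or_pos (finrank F A) with h0 | h0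
  · exact absurd (Submodule.finrank_eq_zero.1 h0) h
  · exact h0

theorem finrank_lt_of_ne_top {A : Submodule F (Fin n → F)} (h : A ≠ ⊤) : finrank F A < n := by
  have := Submodule.finrank_lt h
  rwa [finrank_fin_fun] at this

theorem S1_of_halves (hF : Fintype.card F = q ^ 2) (hn : 0 < n) (hn3 : n ≤ 3) {W W' : Submodule F (Fin n → F)}
    (hW : TS q W) (hW' : TS q W') (hc : IsCompl W W') (hs : ∀ i, Stab (f i) W ∧ Stab (f i) W') : S1 q f := by
  have h1 := finrank_pos_of_ne_bot (TS.ne_bot hF hn hW' hc)
  have h2 := finrank_pos_of_ne_bot (TS.ne_bot hF hn hW hc.symm)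
  have h3 : finrank F W + finrank F W' = n := by
    rw [Submodule.finrank_add_eq_of_isCompl hc, finrank_fin_fun]
  rcases Nat.lt_or_ge 1 (finrank F W) with h4 | h4
  · exact S1_of_line hW' (by omega) fun i => (hs i).2
  · exact S1_of_line hW (by omega) fun i => (hs i).1

theorem no_S4 (hn : n ≤ 5) (K : Type) [Field K] [Algebra F K] [Module K (Fin n → F)] [IsScalarTower F K (Fin n → F)]
    (h1 : 1 < finrank F K) (h3 : 3 ≤ finrank K (Fin n → F)) : False := by
  have h := Module.finrank_mul_finrank F K (Fin n → F)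
  rw [finrank_fin_fun] at h
  have : 2 * 3 ≤ finrank F K * finrank K (Fin n → F) := Nat.mul_le_mul h1 h3
  omega

/-- planes -/
theorem line_or [Finite ι] (hF : Fintype.card F = q ^ 2) (hn : n = 2) (h : Fam q f) :
    S1 q f ∨ ∃ A : Submodule F (Fin n → F), NDeg q A ∧ finrank F A = 1 ∧ ∀ i, Stab (f i) A := by
  have hn0 : 0 < n := by omega
  rcases h.tri hF hn0 with ⟨A, hA, hb, ht, hs⟩ | ⟨W, W', hW, hW', hc, hs⟩ | hf
  · right
    have h1 := finrank_pos_of_ne_bot hb
    have h2 := finrank_lt_of_ne_top ht
    exact ⟨A, hA, by omega, hs⟩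
  · left
    exact S1_of_halves hF hn0 (by omega) hW hW' hc hs
  · left
    rcases hf.cases hF hn0 with h1 | ⟨W, W', hW, hW', hc, hs⟩ | ⟨K, _, _, _, _, _, _, _, h1, h3⟩ | ⟨_, h3, _⟩
    · exact S1_of_scalar hF (by omega) h1
    · exact S1_of_halves hF hn0 (by omega) hW hW' hc hs
    · exact (no_S4 (by omega) K h1 h3).elim
    · omega

theorem iter_add (h : Fam q f) (i : ι) (k : ℕ) (v w : Fin n → F) :
    (f i)^[k] (v + w) = (f i)^[k] v + (f i)^[k] w := by
  rw [← h.g_pow, ← h.g_pow, ← h.g_pow, map_add]

theorem iter_up {a : ℕ} {f' : ι → (Fin a → F) → (Fin a → F)} {φ : (Fin a → F) →ₗ[F] (Fin n → F)}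
    (hφ : ∀ i c, φ (f' i c) = f i (φ c)) (i : ι) (k : ℕ) (c : Fin a → F) : φ ((f' i)^[k] c) = (f i)^[k] (φ c) := by
  induction k with
  | zero => rfl
  | succ k ih => rw [Function.iterate_succ_apply', Function.iterate_succ_apply', hφ, ih]

/-- `q = 2`, small dimension -/
theorem small2 [Finite ι] (hq : q = 2) (hF : Fintype.card F = q ^ 2) (k : ℕ) :
    ∀ {n : ℕ} {f : ι → (Fin n → F) → (Fin n → F)}, n ≤ k → n ≤ 3 → Fam q f →
      S1 q f ∨ ∀ i v, (f i)^[9] v = v := by
  induction k with
  | zero =>
    intro n f hk _ h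
    obtain rfl : n = 0 := by omega
    right
    intro i v
    exact Subsingleton.elim _ _
  | succ k ih =>
    intro n f hk hn3 h
    rcases Nat.eq_zero_or_pos n with hn0 | hn0
    · subst hn0
      right
      intro i v
      exact Subsingleton.elim _ _
    rcases h.tri hF hn0 with ⟨A, hA, hb, ht, hs⟩ | ⟨W, W', hW, hW', hc, hs⟩ | hf
    · have h1 := finrank_pos_of_ne_bot hb
      have h2 := finrank_lt_of_ne_top ht
      have h3 := finrank_hermPerp_of_nondeg hF A hA
      obtain ⟨φ, f', hf', hinj, hr, hiso, hφ⟩ := h.sub hF hA rfl hs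
      obtain ⟨φ', f'', hf'', hinj', hr', hiso', hφ'⟩ := h.sub hF (hermPerp_nondeg hF A hA) rfl
        (fun i => h.perp_stab hF i (hs i))
      rcases ih (by omega) (by omega) hf' with h4 | h4
      · exact Or.inl (h4.up hinj hiso hφ)
      rcases ih (by omega) (by omega) hf'' with h5 | h5
      · exact Or.inl (h5.up hinj' hiso' hφ')
      right
      intro i v
      obtain ⟨w, hw, u, hu, rfl⟩ := exists_add_perp hF A hA v
      rw [iter_add h]
      rw [← hr] at hw
      rw [← hr'] at hu
      obtain ⟨c, rfl⟩ := hw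
      obtain ⟨d, rfl⟩ := hu
      rw [← iter_up hφ, ← iter_up hφ', h4, h5]
    · exact Or.inl (S1_of_halves hF hn0 hn3 hW hW' hc hs)
    · rcases hf.cases hF hn0 with h1 | ⟨W, W', hW, hW', hc, hs⟩ | ⟨K, _, _, _, _, _, _, _, h1, h3⟩ | ⟨_, h3, _, h4⟩
      · rcases Nat.lt_or_ge 1 n with h2 | h2
        · exact Or.inl (S1_of_scalar hF h2 h1)
        right
        obtain rfl : n = 1 := by omega
        intro i v
        obtain ⟨c, hc⟩ := h1 i
        have h5 := h.herm i (Pi.single 0 1) (Pi.single 0 1)
        rw [hc _ Submodule.mem_top, herm_smul_left, herm_smul_right, herm_single_left, Pi.single_eq_same,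
          one_pow, mul_one, mul_one, hq] at h5
        have hit : ∀ k, (f i)^[k] v = c ^ k • v := by
          intro k
          induction k with
          | zero => rw [Function.iterate_zero, id, pow_zero, one_smul]
          | succ k ih => rw [Function.iterate_succ_apply', ih, hc _ Submodule.mem_top, smul_smul, ← pow_succ']
        have h6 : c ^ 3 = 1 := by
          rw [← h5]
          ring
        rw [hit, show c ^ 9 = (c ^ 3) ^ 3 by ring, h6, one_pow, one_smul]
      · exact Or.inl (S1_of_halves hF hn0 hn3 hW hW' hc hs)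
      · exact (no_S4 (by omega) K h1 h3).elim
      · right
        obtain rfl : n = 3 := by omega
        have h5 := h4 h.herm
        rw [hq] at h5
        exact h5

theorem unit_of_line (hF : Fintype.card F = q ^ 2) {A : Submodule F (Fin n → F)} (hA : NDeg q A)
    (h1 : finrank F A = 1) (hs : ∀ i, Stab (f i) A) :
    ∃ w ∈ A, hermForm n F q w w = 1 ∧ ∀ i, ∃ c : F, f i w = c • w := by
  obtain ⟨w, hw, hww⟩ := exists_norm_one_vector hF A hA (by
    rintro rfl
    rw [finrank_bot] at h1
    omega)
  refine ⟨w, hw, hww, fun i => ?_⟩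
  have hw0 : (⟨w, hw⟩ : A) ≠ 0 := by
    intro h
    have h2 : w = 0 := congrArg Subtype.val h
    rw [h2, herm_zero_left] at hww
    exact zero_ne_one hww
  obtain ⟨c, hc⟩ := (finrank_eq_one_iff_of_nonzero' (⟨w, hw⟩ : A) hw0).1 h1 ⟨f i w, hs i w hw⟩
  exact ⟨c, (congrArg Subtype.val hc).symm⟩

/-- **Box E8.** -/
theorem strStmt : StrStmt := by
  intro F _ _ n q hF hn3 ι _ f hlin hadd hherm hcomm hord
  classical
  have h : Fam q f := ⟨hlin, hadd, hherm, hcomm, hord⟩
  have hn0 : 0 < n := by omega
  have hcs := hn3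
  rcases h.tri hF hn0 with hA | hS3 | hf
  · -- a nondegenerate invariant subspace of dimension at least `n / 2`
    obtain ⟨A, hA, hb, ht, hs, hbig⟩ : ∃ A : Submodule F (Fin n → F), NDeg q A ∧ A ≠ ⊥ ∧ A ≠ ⊤ ∧
        (∀ i, Stab (f i) A) ∧ n ≤ 2 * finrank F A := by
      obtain ⟨A, hA, hb, ht, hs⟩ := hA
      have h3 := finrank_hermPerp_of_nondeg hF A hA
      have h1 := finrank_pos_of_ne_bot hb
      have h2 := finrank_lt_of_ne_top ht
      rcases Nat.lt_or_ge (2 * finrank F A) n with h4 | h4
      · refine ⟨_, hermPerp_nondeg hF A hA, ?_, ?_, fun i => h.perp_stab hF i (hs i), by omega⟩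
        · intro h0
          rw [h0, finrank_bot] at h3
          omega
        · intro h0
          rw [h0, finrank_top, finrank_fin_fun] at h3
          omega
      · exact ⟨A, hA, hb, ht, hs, h4⟩
    by_cases hS2 : 3 ≤ finrank F A ∧ ¬ (finrank F A = 3 ∧ q = 2)
    · exact Or.inr (Or.inl ⟨A, hA, ht, hS2.1, hS2.2, hs⟩)
    have h3 := finrank_hermPerp_of_nondeg hF A hA
    have h1 := finrank_pos_of_ne_bot hb
    have h2 := finrank_lt_of_ne_top ht
    obtain ⟨φ, f', hf', hinj, hr, hiso, hφ⟩ := h.sub hF hA rfl hs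
    obtain ⟨φ', f'', hf'', hinj', hr', hiso', hφ'⟩ := h.sub hF (hermPerp_nondeg hF A hA) rfl
      (fun i => h.perp_stab hF i (hs i))
    by_cases hq : q = 2
    · have ha3 : finrank F A ≤ 3 := by
        by_contra hcon
        exact hS2 ⟨by omega, by omega⟩
      rcases small2 hq hF 3 (by omega) (by omega) hf' with h4 | h4
      · exact Or.inl (h4.up hinj hiso hφ)
      rcases small2 hq hF 3 (by omega) (by omega) hf'' with h5 | h5
      · exact Or.inl (h5.up hinj' hiso' hφ')
      right; right; right; right; right; right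
      refine ⟨hq, fun i v => ?_⟩
      obtain ⟨w, hw, u, hu, rfl⟩ := exists_add_perp hF A hA v
      rw [iter_add h]
      rw [← hr] at hw
      rw [← hr'] at hu
      obtain ⟨c, rfl⟩ := hw
      obtain ⟨d, rfl⟩ := hu
      rw [← iter_up hφ, ← iter_up hφ', h4, h5]
    · have ha2 : finrank F A = 2 := by
        rcases Nat.lt_or_ge (finrank F A) 3 with h4 | h4
        · omega
        · exact absurd ⟨h4, by tauto⟩ hS2
      rcases line_or hF ha2 hf' with h4 | ⟨L, hL, hL1, hLs⟩
      · exact Or.inl (h4.up hinj hiso hφ)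
      -- the line in `V`
      have hLm : NDeg q (L.map φ) := by
        rintro _ ⟨c, hc, rfl⟩ hall
        have h5 : c = 0 := hL c hc fun d hd => by
          rw [← hiso]
          exact hall _ ⟨d, hd, rfl⟩
        rw [h5, map_zero]
      have hLm1 : finrank F (L.map φ) = 1 := by
        rw [← hL1]
        exact (Submodule.equivMapOfInjective φ hinj L).symm.finrank_eq
      have hLms : ∀ i, Stab (f i) (L.map φ) := by
        rintro i _ ⟨c, hc, rfl⟩
        rw [← hφ]
        exact ⟨_, hLs i c hc, rfl⟩
      by_cases hn4 : n = 4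
      · right; left
        have h5 := finrank_hermPerp_of_nondeg hF _ hLm
        refine ⟨_, hermPerp_nondeg hF _ hLm, ?_, by omega, by omega, fun i => h.perp_stab hF i (hLms i)⟩
        intro h0
        rw [h0, finrank_top, finrank_fin_fun] at h5
        omega
      · have hn : n = 3 := by omega
        -- three orthogonal lines
        have h5 := finrank_hermPerp_of_nondeg hF L hL
        have hL's : ∀ i, Stab (f' i) (hermPerp q (L : Set (Fin (finrank F A) → F))) :=
          fun i => hf'.perp_stab hF i (hLs i)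
        obtain ⟨w0, hw0, hw00, hw0c⟩ := unit_of_line hF hL hL1 hLs
        obtain ⟨w1, hw1, hw11, hw1c⟩ := unit_of_line hF (hermPerp_nondeg hF L hL) (by omega) hL's
        obtain ⟨w2, hw2, hw22, hw2c⟩ := unit_of_line hF (hermPerp_nondeg hF A hA) (by omega)
          (fun i => h.perp_stab hF i (hs i))
        have h10 : hermForm n F q (φ w1) (φ w0) = 0 := by
          rw [hiso]
          exact hw1 w0 hw0
        have hA' : ∀ c, φ c ∈ A := by
          intro c
          exact hr.le ⟨c, rfl⟩
        have h20 : hermForm n F q w2 (φ w0) = 0 := hw2 _ (hA' w0)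
        have h21 : hermForm n F q w2 (φ w1) = 0 := hw2 _ (hA' w1)
        right; right; right; right; right; left
        refine ⟨hn, ![φ w0, φ w1, w2], ?_, ?_⟩
        · intro i j
          fin_cases i <;> fin_cases j
          · change hermForm n F q (φ w0) (φ w0) = _
            rw [hiso, hw00]
            rfl
          · change hermForm n F q (φ w0) (φ w1) = _
            rw [herm_eq_zero_swap hF h10]
            rfl
          · change hermForm n F q (φ w0) w2 = _
            rw [herm_eq_zero_swap hF h20]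
            rfl
          · change hermForm n F q (φ w1) (φ w0) = _
            rw [h10]
            rfl
          · change hermForm n F q (φ w1) (φ w1) = _
            rw [hiso, hw11]
            rfl
          · change hermForm n F q (φ w1) w2 = _
            rw [herm_eq_zero_swap hF h21]
            rfl
          · change hermForm n F q w2 (φ w0) = _
            rw [h20]
            rfl
          · change hermForm n F q w2 (φ w1) = _
            rw [h21]
            rfl
          · change hermForm n F q w2 w2 = _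
            rw [hw22]
            rfl
        · intro i j
          fin_cases j
          · obtain ⟨c, hc⟩ := hw0c i
            exact ⟨c, by change f i (φ w0) = c • φ w0; rw [← hφ, hc, map_smul]⟩
          · obtain ⟨c, hc⟩ := hw1c i
            exact ⟨c, by change f i (φ w1) = c • φ w1; rw [← hφ, hc, map_smul]⟩
          · obtain ⟨c, hc⟩ := hw2c i
            exact ⟨c, hc⟩
  · exact Or.inr (Or.inr (Or.inl hS3))
  · rcases hf.cases hF hn0 with h1 | hS3 | hS4 | ⟨ho, _, h4, _⟩
    · exact Or.inl (S1_of_scalar hF (by omega) h1)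
    · exact Or.inr (Or.inr (Or.inl hS3))
    · exact Or.inr (Or.inr (Or.inr (Or.inl hS4)))
    · exact Or.inr (Or.inr (Or.inr (Or.inr (Or.inl ⟨ho, h4⟩))))

end main

end Cfsg.Agent.H409.RC
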