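import Cfsg.Agent.H380.RC.EStmt
import Cfsg.Agent.H398.RC.KStruct
import Cfsg.Agent.ClassicalGeometry.HermOrtho

/-!
# S3510, family E, box E8 (1): commutative `*`-closed algebras of endomorphisms (helper409)
-/

set_option autoImplicit false
set_option linter.unusedSectionVars false

namespace Cfsg.Agent.H409.RC

open Cfsg Module Cfsg.Agent.LieClassical.HermBasic Cfsg.Agent.ClassicalGeometry.HermOrtho Cfsg.Agent.H380.RC

section alg

variable {F : Type} [Field F] [Fintype F] {n q : ℕ}

/-- `b` is adjoint to `a` -/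
def Adj (q : ℕ) (a b : Module.End F (Fin n → F)) : Prop :=
  ∀ v w, hermForm n F q (a v) w = hermForm n F q v (b w)

theorem Adj.symm (hF : Fintype.card F = q ^ 2) {a b : Module.End F (Fin n → F)} (h : Adj q a b) : Adj q b a := by
  intro v w
  rw [herm_swap hF w (b v), ← h, ← herm_swap hF]

theorem Adj.unique (hF : Fintype.card F = q ^ 2) {a b b' : Module.End F (Fin n → F)} (h : Adj q a b)
    (h' : Adj q a b') : b = b' := by
  apply LinearMap.ext
  intro w
  rw [← sub_eq_zero]
  apply herm_nondeg hF
  intro v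
  apply herm_eq_zero_swap hF
  rw [herm_sub_right hF, ← h, ← h', sub_self]

theorem Adj.mul {a a' b b' : Module.End F (Fin n → F)} (h : Adj q a a') (h' : Adj q b b') :
    Adj q (a * b) (b' * a') := by
  intro v w
  rw [Module.End.mul_apply, Module.End.mul_apply, h, h']

theorem Adj.add (hF : Fintype.card F = q ^ 2) {a a' b b' : Module.End F (Fin n → F)} (h : Adj q a a')
    (h' : Adj q b b') : Adj q (a + b) (a' + b') := by
  intro v w
  rw [LinearMap.add_apply, LinearMap.add_apply, herm_add_left, herm_add_right hF, h, h']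

theorem Adj.sub (hF : Fintype.card F = q ^ 2) {a a' b b' : Module.End F (Fin n → F)} (h : Adj q a a')
    (h' : Adj q b b') : Adj q (a - b) (a' - b') := by
  intro v w
  rw [LinearMap.sub_apply, LinearMap.sub_apply, herm_sub_left, herm_sub_right hF, h, h']

theorem Adj.one : Adj q (1 : Module.End F (Fin n → F)) 1 := fun _ _ => rfl

theorem Adj.alg (hF : Fintype.card F = q ^ 2) (c : F) :
    Adj q (algebraMap F (Module.End F (Fin n → F)) c) (algebraMap F (Module.End F (Fin n → F)) (c ^ q)) := by
  intro v w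
  rw [Module.algebraMap_end_apply, Module.algebraMap_end_apply, herm_smul_left, herm_smul_right,
    pow_q_pow_q hF]

theorem osmos {A : Type*} [Ring A] (a b : A) : (1 - a) * (1 - b) = 1 - a - b + a * b := by
  rw [sub_mul, one_mul, mul_sub, mul_one]
  abel

/-- a commutative `*`-closed algebra of endomorphisms, all elements satisfy `a ^ N = a` -/
structure CSt (q : ℕ) (R : Subalgebra F (Module.End F (Fin n → F))) : Prop where
  comm : ∀ a ∈ R, ∀ b ∈ R, a * b = b * a
  star : ∀ a ∈ R, ∃ b ∈ R, Adj q a b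
  red : ∃ N : ℕ, 2 ≤ N ∧ ∀ a ∈ R, a ^ N = a

variable {R : Subalgebra F (Module.End F (Fin n → F))}

/-- the three cases -/
theorem tri_alg (hF : Fintype.card F = q ^ 2) (h : CSt q R) :
    (∃ s ∈ R, s * s = s ∧ s ≠ 0 ∧ s ≠ 1 ∧ Adj q s s) ∨ (∃ e ∈ R, e * e = e ∧ Adj q e (1 - e)) ∨
      ∀ a ∈ R, a ≠ 0 → ∃ b ∈ R, a * b = 1 := by
  by_cases hinv : ∀ a ∈ R, a ≠ 0 → ∃ b ∈ R, a * b = 1
  · exact Or.inr (Or.inr hinv)
  push Not at hinv
  obtain ⟨a, haR, ha0, hab⟩ := hinv
  obtain ⟨N, hN, hpow⟩ := h.red
  obtain ⟨M, rfl⟩ : ∃ M, N = M + 2 := ⟨N - 2, by omega⟩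
  have hred : a ^ (M + 2) = a := hpow a haR
  obtain ⟨e, he⟩ : ∃ e, e = a ^ (M + 1) := ⟨_, rfl⟩
  have heR : e ∈ R := by
    rw [he]
    exact pow_mem haR _
  have hee : e * e = e := by
    rw [he, ← pow_add]
    have h1 : M + 1 + (M + 1) = (M + 2) + M := by ring
    rw [h1, pow_add, hred, pow_succ']
  have he0 : e ≠ 0 := by
    intro h0
    apply ha0
    rw [← hred, pow_succ, ← he, h0, zero_mul]
  have he1 : e ≠ 1 := by
    intro h1
    apply hab (a ^ M) (pow_mem haR _)
    rw [← pow_succ', ← he, h1]
  obtain ⟨e', he'R, hadj⟩ := h.star e heR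
  have hcom : e * e' = e' * e := h.comm e heR e' he'R
  have hee' : e' * e' = e' := by
    apply Adj.unique hF (a := e)
    · have := hadj.mul hadj
      rwa [hee] at this
    · exact hadj
  by_cases hs : e * e' = 0
  · by_cases ht : (1 - e) * (1 - e') = 0
    · right
      left
      refine ⟨e, heR, hee, ?_⟩
      have h1 : e' = 1 - e := by
        have h2 : (1 - e) * (1 - e') = 1 - e - e' + e * e' := osmos e e'
        rw [ht, hs, add_zero] at h2
        exact (sub_eq_zero.1 h2.symm).symm
      rw [← h1]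
      exact hadj
    · left
      have h1e : (1 - e) * (1 - e) = 1 - e := by
        have : (1 - e) * (1 - e) = 1 - e - e + e * e := osmos e e
        rw [this, hee]
        abel
      have h1e' : (1 - e') * (1 - e') = 1 - e' := by
        have : (1 - e') * (1 - e') = 1 - e' - e' + e' * e' := osmos e' e'
        rw [this, hee']
        abel
      have hcom1 : (1 - e) * (1 - e') = (1 - e') * (1 - e) := by
        rw [osmos, osmos, hcom]
        abel
      refine ⟨(1 - e) * (1 - e'), R.mul_mem (R.sub_mem R.one_mem heR) (R.sub_mem R.one_mem he'R), ?_, ht, ?_, ?_⟩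
      · calc (1 - e) * (1 - e') * ((1 - e) * (1 - e')) = (1 - e) * ((1 - e') * (1 - e)) * (1 - e') := by
              simp only [mul_assoc]
          _ = (1 - e) * ((1 - e) * (1 - e')) * (1 - e') := by rw [hcom1]
          _ = ((1 - e) * (1 - e)) * ((1 - e') * (1 - e')) := by simp only [mul_assoc]
          _ = _ := by rw [h1e, h1e']
      · intro h1
        apply he0
        have h2 : e * ((1 - e) * (1 - e')) = 0 := by
          rw [← mul_assoc, mul_sub e 1 e, mul_one, hee, sub_self, zero_mul]
        rw [h1, mul_one] at h2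
        exact h2
      · have h2 : Adj q ((1 - e) * (1 - e')) ((1 - e) * (1 - e')) :=
          (Adj.one.sub hF hadj).mul (Adj.one.sub hF (hadj.symm hF))
        exact h2
  · left
    refine ⟨e * e', R.mul_mem heR he'R, ?_, hs, ?_, ?_⟩
    · calc e * e' * (e * e') = e * (e' * e) * e' := by simp only [mul_assoc]
        _ = e * (e * e') * e' := by rw [← hcom]
        _ = (e * e) * (e' * e') := by simp only [mul_assoc]
        _ = _ := by rw [hee, hee']
    · intro h1
      apply he1
      have h2 : e * (e * e') = e * e' := by rw [← mul_assoc, hee]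
      rw [h1, mul_one] at h2
      exact h2
    · exact hadj.mul (hadj.symm hF)

/-- the field -/
theorem mkField (hn : 0 < n) (hcomm : ∀ a ∈ R, ∀ b ∈ R, a * b = b * a)
    (hinj : ∀ a ∈ R, a ≠ 0 → Function.Injective a) (hstar : ∀ a ∈ R, ∃ b ∈ R, Adj q a b) :
    ∃ (K : Type) (_ : Field K) (_ : Fintype K) (_ : Algebra F K) (_ : Module K (Fin n → F))
      (_ : IsScalarTower F K (Fin n → F)),
      (∀ a : K, ∃ b : K, ∀ v w : Fin n → F, hermForm n F q (a • v) w = hermForm n F q v (b • w)) ∧
      (∀ k : K, ∃ a ∈ R, ∀ v : Fin n → F, k • v = a v) ∧ (∀ a ∈ R, ∃ k : K, ∀ v : Fin n → F, a v = k • v) := by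
  classical
  have hfin : Finite R := Finite.of_injective (fun (a : R) (v : Fin n → F) => (a : Module.End F (Fin n → F)) v) (by
    intro a b hab
    exact Subtype.ext (LinearMap.ext fun v => congrFun hab v))
  have hfield : IsField R := by
    refine ⟨⟨0, 1, ?_⟩, fun a b => Subtype.ext (hcomm a a.2 b b.2), ?_⟩
    · intro h
      have h1 : (0 : Module.End F (Fin n → F)) = 1 := congrArg Subtype.val h
      have h2 := LinearMap.congr_fun h1 (Pi.single ⟨0, hn⟩ 1)
      have h3 := congrFun h2 ⟨0, hn⟩
      rw [Module.End.one_apply, Pi.single_eq_same] at h3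
      exact zero_ne_one h3
    · intro a ha
      have ha' : (a : Module.End F (Fin n → F)) ≠ 0 := fun h => ha (Subtype.ext h)
      have hinj' : Function.Injective (fun b : R => a * b) := by
        intro b c hbc
        apply Subtype.ext
        apply LinearMap.ext
        intro u
        apply hinj a a.2 ha'
        exact congrArg (fun f : R => (f : Module.End F (Fin n → F)) u) hbc
      obtain ⟨b, hb⟩ := Finite.surjective_of_injective hinj' 1
      exact ⟨b, hb⟩
  let _ : Field R := hfield.toField
  have : Fintype R := Fintype.ofFinite R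
  refine ⟨R, inferInstance, this, inferInstance, inferInstance, ⟨fun _ _ _ => rfl⟩, ?_, ?_, ?_⟩
  · intro a
    obtain ⟨b, hbR, hb⟩ := hstar a a.2
    exact ⟨⟨b, hbR⟩, hb⟩
  · intro k
    exact ⟨k, k.2, fun _ => rfl⟩
  · intro a ha
    exact ⟨⟨a, ha⟩, fun _ => rfl⟩

end alg

end Cfsg.Agent.H409.RC
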