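import Cfsg.Agent.H409.RC.Str1

/-!
# S3510, family E, box E8 (2): the algebra of a commuting family (helper409)
-/

set_option autoImplicit false
set_option linter.unusedSectionVars false

namespace Cfsg.Agent.H409.RC

open Cfsg Module Cfsg.Agent.LieClassical.HermBasic Cfsg.Agent.ClassicalGeometry.HermOrtho Cfsg.Agent.H380.RC

section adj

variable {F : Type} [Field F] [Fintype F] {n q : ℕ}

theorem comm_adjoin {S : Set (Module.End F (Fin n → F))} {b : Module.End F (Fin n → F)} (hb : ∀ s ∈ S, Commute b s)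
    {a : Module.End F (Fin n → F)} (ha : a ∈ Algebra.adjoin F S) : Commute b a := by
  induction ha using Algebra.adjoin_induction with
  | mem y hy => exact hb y hy
  | algebraMap r => exact (Algebra.commutes r b).symm
  | add a b _ _ ha hb => exact ha.add_right hb
  | mul a b _ _ ha hb => exact ha.mul_right hb

theorem cst_adjoin (hF : Fintype.card F = q ^ 2) (hn : 0 < n) {S : Set (Module.End F (Fin n → F))}
    (hcomm : ∀ a ∈ S, ∀ b ∈ S, Commute a b) (hiso : ∀ a ∈ S, ∀ v w, hermForm n F q (a v) (a w) = hermForm n F q v w)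
    {M : ℕ} (hM : M.Coprime q) (hord : ∀ a ∈ S, a ^ M = 1) : CSt q (Algebra.adjoin F S) := by
  have hq : 2 ≤ q := two_le hF
  have hM0 : 0 < M := by
    rcases Nat.eq_zero_or_pos M with h | h
    · subst h
      rw [Nat.coprime_zero_left] at hM
      omega
    · exact h
  have hc : ∀ a ∈ Algebra.adjoin F S, ∀ b ∈ Algebra.adjoin F S, Commute a b := fun a ha b hb =>
    comm_adjoin (fun s hs => (comm_adjoin (fun t ht => hcomm s hs t ht) ha).symm) hb
  refine ⟨fun a ha b hb => (hc a ha b hb).eq, ?_, ?_⟩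
  · intro a ha
    induction ha using Algebra.adjoin_induction with
    | mem y hy =>
      refine ⟨y ^ (M - 1), pow_mem (Algebra.subset_adjoin hy) _, ?_⟩
      intro v w
      have h1 : w = y ((y ^ (M - 1)) w) := by
        have h2 : y * y ^ (M - 1) = 1 := by
          rw [← pow_succ', show M - 1 + 1 = M by omega]
          exact hord y hy
        have h3 := LinearMap.congr_fun h2 w
        exact h3.symm
      conv_lhs => rw [h1]
      exact hiso y hy _ _
    | algebraMap r => exact ⟨_, Subalgebra.algebraMap_mem _ _, Adj.alg hF r⟩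
    | add a b _ _ ha hb =>
      obtain ⟨a', ha', h1⟩ := ha
      obtain ⟨b', hb', h2⟩ := hb
      exact ⟨a' + b', add_mem ha' hb', h1.add hF h2⟩
    | mul a b _ _ ha hb =>
      obtain ⟨a', ha', h1⟩ := ha
      obtain ⟨b', hb', h2⟩ := hb
      exact ⟨b' * a', mul_mem hb' ha', h1.mul h2⟩
  · obtain ⟨p, k, hp, hchar, hk, hk0⟩ := exists_prime_pow hF
    have : Fact p.Prime := ⟨hp⟩
    have : Nonempty (Fin n) := ⟨⟨0, hn⟩⟩
    have hinj : Function.Injective (algebraMap F (Module.End F (Fin n → F))) := (algebraMap F _).injective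
    have hcE : CharP (Module.End F (Fin n → F)) p := charP_of_injective_algebraMap hinj p
    have hN : (q ^ 2) ^ M.totient = p ^ (k * 2 * M.totient) := by
      rw [hk, ← pow_mul, ← pow_mul, mul_assoc]
    have hmod : (q ^ 2) ^ M.totient ≡ 1 [MOD M] := Nat.ModEq.pow_totient (Nat.Coprime.pow_left 2 hM.symm)
    have hφ : 0 < M.totient := Nat.totient_pos.2 hM0
    have h2N : 2 ≤ (q ^ 2) ^ M.totient := by
      calc 2 ≤ q := hq
        _ ≤ q ^ (2 * M.totient) := Nat.le_self_pow (by omega) q
        _ = _ := by rw [pow_mul]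
    refine ⟨(q ^ 2) ^ M.totient, h2N, ?_⟩
    intro a ha
    induction ha using Algebra.adjoin_induction with
    | mem y hy =>
      obtain ⟨t, ht⟩ := (Nat.modEq_iff_dvd' (by omega)).1 hmod.symm
      have h3 : (q ^ 2) ^ M.totient = M * t + 1 := by omega
      rw [h3, pow_succ, pow_mul, hord y hy, one_pow, one_mul]
    | algebraMap r =>
      rw [← map_pow, ← hF, FiniteField.pow_card_pow]
    | add a b ha' hb' ha hb =>
      rw [hN, add_pow_char_pow_of_commute _ _ (hc a ha' b hb'), ← hN, ha, hb]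
    | mul a b ha' hb' ha hb =>
      rw [(hc a ha' b hb').mul_pow, ha, hb]

/-- commuting linear isometries of order prime to `q` -/
structure Fam (q : ℕ) {ι : Type} (f : ι → (Fin n → F) → (Fin n → F)) : Prop where
  lin : ∀ i, Lin (f i)
  add : ∀ i v w, f i (v + w) = f i v + f i w
  herm : ∀ i v w, hermForm n F q (f i v) (f i w) = hermForm n F q v w
  comm : ∀ i j v, f i (f j v) = f j (f i v)
  ord : ∀ i, ∃ m : ℕ, m.Coprime q ∧ ∀ v, (f i)^[m] v = v

variable {ι : Type} {f : ι → (Fin n → F) → (Fin n → F)}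

/-- the linear maps -/
def Fam.g (h : Fam q f) (i : ι) : Module.End F (Fin n → F) where
  toFun := f i
  map_add' := h.add i
  map_smul' := h.lin i

theorem Fam.g_apply (h : Fam q f) (i : ι) (v : Fin n → F) : h.g i v = f i v := rfl

theorem Fam.g_pow (h : Fam q f) (i : ι) (m : ℕ) (v : Fin n → F) : (h.g i ^ m) v = (f i)^[m] v := by
  rw [Module.End.pow_apply]
  rfl

theorem Fam.exists_M [Finite ι] (h : Fam q f) : ∃ M : ℕ, M.Coprime q ∧ ∀ i, h.g i ^ M = 1 := by
  classical
  have := Fintype.ofFinite ι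
  choose m hm hmf using h.ord
  refine ⟨∏ i, m i, Nat.Coprime.prod_left fun i _ => hm i, fun i => ?_⟩
  have h1 : h.g i ^ m i = 1 := by
    apply LinearMap.ext
    intro v
    rw [h.g_pow, hmf, Module.End.one_apply]
  obtain ⟨t, ht⟩ := Finset.dvd_prod_of_mem m (Finset.mem_univ i)
  rw [ht, pow_mul, h1, one_pow]

theorem Fam.cst [Finite ι] (hF : Fintype.card F = q ^ 2) (hn : 0 < n) (h : Fam q f) :
    CSt q (Algebra.adjoin F (Set.range h.g)) := by
  obtain ⟨M, hM, hMi⟩ := h.exists_M
  apply cst_adjoin hF hn _ _ hM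
  · rintro _ ⟨i, rfl⟩
    exact hMi i
  · rintro _ ⟨i, rfl⟩ _ ⟨j, rfl⟩
    apply LinearMap.ext
    intro v
    exact h.comm i j v
  · rintro _ ⟨i, rfl⟩ v w
    exact h.herm i v w

/-- restriction of the index set -/
theorem Fam.single (h : Fam q f) (i : ι) : Fam q (fun _ : Unit => f i) :=
  ⟨fun _ => h.lin i, fun _ => h.add i, fun _ => h.herm i, fun _ _ _ => rfl, fun _ => h.ord i⟩

theorem stab_range {s g : Module.End F (Fin n → F)} (h : s * g = g * s) :
    ∀ v ∈ LinearMap.range s, g v ∈ LinearMap.range s := by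
  rintro _ ⟨v, rfl⟩
  exact ⟨g v, LinearMap.congr_fun h v⟩

theorem stab_ker {s g : Module.End F (Fin n → F)} (h : s * g = g * s) :
    ∀ v ∈ LinearMap.ker s, g v ∈ LinearMap.ker s := by
  intro v hv
  rw [LinearMap.mem_ker] at hv ⊢
  have h1 : s (g v) = g (s v) := LinearMap.congr_fun h v
  rw [h1, hv, map_zero]

/-- a field of endomorphisms -/
def FieldCase (q : ℕ) (f : ι → (Fin n → F) → (Fin n → F)) : Prop :=
  ∃ (K : Type) (_ : Field K) (_ : Fintype K) (_ : Algebra F K) (_ : Module K (Fin n → F))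
    (_ : IsScalarTower F K (Fin n → F)),
    (∀ a : K, ∃ b : K, ∀ v w : Fin n → F, hermForm n F q (a • v) w = hermForm n F q v (b • w)) ∧
    (∀ (i : ι) (a : K) (v : Fin n → F), f i (a • v) = a • f i v) ∧ (∀ i, ∃ a : K, ∀ v, f i v = a • v) ∧
    (∀ i, ScalOn (f i) ⊤ ∨ (∀ A : Submodule F (Fin n → F), Stab (f i) A → A = ⊥ ∨ A = ⊤) ∨
      ∃ (K' : Type) (_ : Field K') (_ : Fintype K') (_ : Algebra F K') (_ : Module K' (Fin n → F))
        (_ : IsScalarTower F K' (Fin n → F)),
        (∀ a : K', ∃ b : K', ∀ v w : Fin n → F, hermForm n F q (a • v) w = hermForm n F q v (b • w)) ∧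
        (∀ (i : ι) (a : K') (v : Fin n → F), f i (a • v) = a • f i v) ∧ 1 < Module.finrank F K' ∧
        1 < Module.finrank K' (Fin n → F))

theorem adjoin_stab {S : Set (Module.End F (Fin n → F))} {A : Submodule F (Fin n → F)}
    (hA : ∀ s ∈ S, ∀ v ∈ A, s v ∈ A) {a : Module.End F (Fin n → F)} (ha : a ∈ Algebra.adjoin F S) :
    ∀ v ∈ A, a v ∈ A := by
  induction ha using Algebra.adjoin_induction with
  | mem y hy => exact hA y hy
  | algebraMap c => intro u hu; exact A.smul_mem c hu
  | add a b _ _ ha hb => intro u hu; exact A.add_mem (ha u hu) (hb u hu)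
  | mul a b _ _ ha hb => intro u hu; exact ha _ (hb u hu)

theorem Fam.field [Finite ι] (hF : Fintype.card F = q ^ 2) (hn : 0 < n) (h : Fam q f)
    (hinv : ∀ a ∈ Algebra.adjoin F (Set.range h.g), a ≠ 0 → ∃ b ∈ Algebra.adjoin F (Set.range h.g), a * b = 1) :
    FieldCase q f := by
  have hR := h.cst hF hn
  have hinj : ∀ a ∈ Algebra.adjoin F (Set.range h.g), a ≠ 0 → Function.Injective a := by
    intro a ha ha0
    obtain ⟨b, hb, hab⟩ := hinv a ha ha0
    rw [hR.comm a ha b hb] at hab
    intro v w hvw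
    have h1 : (b * a) v = (b * a) w := by
      rw [Module.End.mul_apply, Module.End.mul_apply, hvw]
    rwa [hab] at h1
  obtain ⟨K, i1, i2, i3, i4, i5, hst, hKR, hRK⟩ := mkField hn hR.comm hinj hR.star
  have hgR : ∀ i, h.g i ∈ Algebra.adjoin F (Set.range h.g) := fun i => Algebra.subset_adjoin ⟨i, rfl⟩
  refine ⟨K, i1, i2, i3, i4, i5, hst, ?_, fun i => hRK _ (hgR i), ?_⟩
  · intro i a v
    obtain ⟨b, hb, hab⟩ := hKR a
    rw [hab, hab]
    exact LinearMap.congr_fun (hR.comm _ (hgR i) _ hb) v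
  · intro i
    obtain ⟨M, hM, hMi⟩ := h.exists_M
    have hRi : CSt q (Algebra.adjoin F {h.g i}) := by
      apply cst_adjoin hF hn _ _ hM
      · intro a ha
        rw [Set.mem_singleton_iff] at ha
        rw [ha]
        exact hMi i
      · intro a ha b hb
        rw [Set.mem_singleton_iff] at ha hb
        rw [ha, hb]
      · intro a ha v w
        rw [Set.mem_singleton_iff] at ha
        rw [ha]
        exact h.herm i v w
    have hle : Algebra.adjoin F {h.g i} ≤ Algebra.adjoin F (Set.range h.g) := by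
      apply Algebra.adjoin_mono
      rintro _ rfl
      exact ⟨i, rfl⟩
    obtain ⟨K', j1, j2, j3, j4, j5, hst', hKR', hRK'⟩ := mkField hn hRi.comm (fun a ha => hinj a (hle ha)) hRi.star
    have hfd : FiniteDimensional F K' := Module.Finite.of_finite
    have hfdV : FiniteDimensional K' (Fin n → F) := Module.Finite.of_finite
    obtain ⟨k, hk⟩ := hRK' _ (Algebra.subset_adjoin (Set.mem_singleton (h.g i)))
    have : Nonempty (Fin n) := ⟨⟨0, hn⟩⟩
    by_cases h1 : finrank F K' = 1
    · left
      obtain ⟨c, hc⟩ := (finrank_eq_one_iff_of_nonzero' (1 : K') one_ne_zero).1 h1 k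
      refine ⟨c, fun v _ => ?_⟩
      have h2 : f i v = k • v := hk v
      rw [h2, ← hc, smul_assoc, one_smul]
    right
    by_cases h2 : finrank K' (Fin n → F) = 1
    · left
      intro A hA
      by_contra hcon
      push Not at hcon
      obtain ⟨v₀, hv₀, hv0⟩ := A.ne_bot_iff.1 hcon.1
      apply hcon.2
      rw [Submodule.eq_top_iff']
      intro w
      obtain ⟨c, rfl⟩ := (finrank_eq_one_iff_of_nonzero' v₀ hv0).1 h2 w
      obtain ⟨b, hb, hcb⟩ := hKR' c
      rw [hcb]
      refine adjoin_stab ?_ hb v₀ hv₀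
      rintro _ rfl v hv
      exact hA v hv
    right
    refine ⟨K', j1, j2, j3, j4, j5, hst', ?_, ?_, ?_⟩
    · intro j a v
      obtain ⟨b, hb, hab⟩ := hKR' a
      rw [hab, hab]
      exact LinearMap.congr_fun (hR.comm _ (hgR j) _ (hle hb)) v
    · have := finrank_pos (R := F) (M := K')
      omega
    · have := finrank_pos (R := K') (M := Fin n → F)
      omega

/-- the trichotomy for a commuting family -/
theorem Fam.tri [Finite ι] (hF : Fintype.card F = q ^ 2) (hn : 0 < n) (h : Fam q f) :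
    (∃ A : Submodule F (Fin n → F), NDeg q A ∧ A ≠ ⊥ ∧ A ≠ ⊤ ∧ ∀ i, Stab (f i) A) ∨
    (∃ W W' : Submodule F (Fin n → F), TS q W ∧ TS q W' ∧ IsCompl W W' ∧ ∀ i, Stab (f i) W ∧ Stab (f i) W') ∨
    FieldCase q f := by
  have hR := h.cst hF hn
  have hgR : ∀ i, h.g i ∈ Algebra.adjoin F (Set.range h.g) := fun i => Algebra.subset_adjoin ⟨i, rfl⟩
  rcases tri_alg hF hR with ⟨s, hs, hss, hs0, hs1, hadj⟩ | ⟨e, he, hee, hadj⟩ | hinv
  · left
    refine ⟨LinearMap.range s, ?_, ?_, ?_, fun i => stab_range (hR.comm s hs _ (hgR i))⟩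
    · rintro _ ⟨v, rfl⟩ hw
      apply herm_nondeg hF
      intro w
      have h1 : s (s v) = s v := LinearMap.congr_fun hss v
      rw [← h1, hadj]
      exact hw _ ⟨w, rfl⟩
    · intro h0
      exact hs0 (LinearMap.range_eq_bot.1 h0)
    · intro h1
      apply hs1
      apply LinearMap.ext
      intro v
      obtain ⟨w, rfl⟩ := LinearMap.range_eq_top.1 h1 v
      exact LinearMap.congr_fun hss w
  · right
    left
    have h0 : e * (1 - e) = 0 := by rw [mul_sub, mul_one, hee, sub_self]
    refine ⟨LinearMap.range e, LinearMap.ker e, ?_, ?_, ?_, fun i => ⟨stab_range (hR.comm e he _ (hgR i)),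
      stab_ker (hR.comm e he _ (hgR i))⟩⟩
    · rintro _ ⟨v, rfl⟩ _ ⟨w, rfl⟩
      rw [hadj]
      have h1 : (1 - e) (e w) = 0 := by
        have h2 : (1 - e) * e = 0 := by rw [sub_mul, one_mul, hee, sub_self]
        exact LinearMap.congr_fun h2 w
      rw [h1, herm_zero_right hF]
    · intro v hv w hw
      rw [LinearMap.mem_ker] at hv hw
      have h1 : w = (1 - e) w := by
        rw [LinearMap.sub_apply, hw, Module.End.one_apply, sub_zero]
      rw [h1, ← hadj, hv, herm_zero_left]
    · constructor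
      · rw [Submodule.disjoint_def]
        rintro _ ⟨v, rfl⟩ hv
        rw [LinearMap.mem_ker] at hv
        have h1 : e (e v) = e v := LinearMap.congr_fun hee v
        rw [← h1, hv]
      · rw [codisjoint_iff, Submodule.eq_top_iff']
        intro v
        have h1 : v = e v + (v - e v) := by abel
        rw [h1]
        apply Submodule.add_mem_sup
        · exact ⟨v, rfl⟩
        · rw [LinearMap.mem_ker, map_sub]
          have h2 : e (e v) = e v := LinearMap.congr_fun hee v
          rw [h2, sub_self]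
  · right
    right
    exact h.field hF hn hinv

end adj

end Cfsg.Agent.H409.RC
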