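import Cfsg.Agent.H409.RC.Str2

/-!
# S3510, family E, box E8 (3): invariant nondegenerate subspaces (helper409)
-/

set_option autoImplicit false
set_option linter.unusedSectionVars false

namespace Cfsg.Agent.H409.RC

open Cfsg Module Cfsg.Agent.LieClassical.HermBasic Cfsg.Agent.ClassicalGeometry.HermOrtho Cfsg.Agent.H380.RC

section geo

variable {F : Type} [Field F] [Fintype F] {n q : ℕ} {ι : Type} {f : ι → (Fin n → F) → (Fin n → F)}

/-- the common singular eigenvector -/
def S1 (q : ℕ) (f : ι → (Fin n → F) → (Fin n → F)) : Prop :=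
  ∃ e : Fin n → F, e ≠ 0 ∧ hermForm n F q e e = 0 ∧ ∀ i, ∃ c : F, f i e = c • e

theorem exists_sing (hF : Fintype.card F = q ^ 2) (hn : 2 ≤ n) :
    ∃ e : Fin n → F, e ≠ 0 ∧ hermForm n F q e e = 0 := by
  obtain ⟨t, ht⟩ := exists_norm_eq hF (c := (-1 : F)) (by rw [neg_pow_q hF, one_pow])
  let i : Fin n := ⟨0, by omega⟩
  let j : Fin n := ⟨1, by omega⟩
  have hij : i ≠ j := by
    intro h
    have := congrArg Fin.val h
    simp [i, j] at this
  refine ⟨Pi.single i 1 + Pi.single j t, ?_, ?_⟩
  · intro h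
    have h1 := congrFun h i
    rw [Pi.add_apply, Pi.single_eq_same, Pi.single_eq_of_ne hij, add_zero, Pi.zero_apply] at h1
    exact one_ne_zero h1
  · rw [herm_add_left, herm_single_left, herm_single_left, Pi.add_apply, Pi.add_apply, Pi.single_eq_same,
      Pi.single_eq_same, Pi.single_eq_of_ne hij, Pi.single_eq_of_ne hij.symm, add_zero, zero_add, one_pow, ht]
    ring

theorem Fam.zero (h : Fam q f) (i : ι) : f i 0 = 0 := (h.g i).map_zero

/-- a totally singular subspace with totally singular complement is not everything -/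
theorem TS.ne_bot (hF : Fintype.card F = q ^ 2) (hn : 0 < n) {W W' : Submodule F (Fin n → F)} (hW' : TS q W')
    (hc : IsCompl W W') : W ≠ ⊥ := by
  rintro rfl
  have h1 : W' = ⊤ := by
    have := hc.sup_eq_top
    rwa [bot_sup_eq] at this
  subst h1
  have h2 : (Pi.single ⟨0, hn⟩ 1 : Fin n → F) = 0 := by
    apply herm_nondeg hF
    intro v
    exact hW' _ (Submodule.mem_top) _ (Submodule.mem_top)
  have h3 := congrFun h2 ⟨0, hn⟩
  rw [Pi.single_eq_same] at h3
  exact one_ne_zero h3

/-- an invariant totally singular line -/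
theorem S1_of_line {W : Submodule F (Fin n → F)} (hW : TS q W) (h1 : finrank F W = 1) (hs : ∀ i, Stab (f i) W) :
    S1 q f := by
  obtain ⟨⟨e, he⟩, he0, hall⟩ := finrank_eq_one_iff'.1 h1
  refine ⟨e, fun h => he0 (Subtype.ext h), hW e he e he, fun i => ?_⟩
  obtain ⟨c, hc⟩ := hall ⟨f i e, hs i e he⟩
  exact ⟨c, (congrArg Subtype.val hc).symm⟩

theorem Fam.perp_stab (hF : Fintype.card F = q ^ 2) (h : Fam q f) {A : Submodule F (Fin n → F)} (i : ι)
    (hs : Stab (f i) A) : Stab (f i) (hermPerp q (A : Set (Fin n → F))) := by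
  intro u hu v hv
  obtain ⟨m, hm, hmf⟩ := h.ord i
  have hm0 : m ≠ 0 := by
    rintro rfl
    rw [Nat.coprime_zero_left] at hm
    have := two_le hF
    omega
  have hit : ∀ k, (f i)^[k] v ∈ A := by
    intro k
    induction k with
    | zero => exact hv
    | succ k ih =>
      rw [Function.iterate_succ_apply']
      exact hs _ ih
  have h1 : v = f i ((f i)^[m - 1] v) := by
    have h2 : f i ((f i)^[m - 1] v) = (f i)^[m - 1 + 1] v := (Function.iterate_succ_apply' (f i) (m - 1) v).symm
    rw [h2, show m - 1 + 1 = m by omega, hmf]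
  rw [h1, h.herm]
  exact hu _ (hit _)

/-- passing to an invariant nondegenerate subspace -/
theorem Fam.sub (hF : Fintype.card F = q ^ 2) (h : Fam q f) {A : Submodule F (Fin n → F)} (hA : NDeg q A) {a : ℕ}
    (ha : finrank F A = a) (hs : ∀ i, Stab (f i) A) :
    ∃ (φ : (Fin a → F) →ₗ[F] (Fin n → F)) (f' : ι → (Fin a → F) → (Fin a → F)), Fam q f' ∧
      Function.Injective φ ∧ LinearMap.range φ = A ∧
      (∀ c d, hermForm n F q (φ c) (φ d) = hermForm a F q c d) ∧ ∀ i c, φ (f' i c) = f i (φ c) := by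
  classical
  obtain ⟨b, hbA, hb⟩ := exists_orthonormal hF A hA ha
  let φ : (Fin a → F) →ₗ[F] (Fin n → F) :=
    { toFun := fun c => ∑ i, c i • b i
      map_add' := fun c d => by simp only [Pi.add_apply, add_smul, Finset.sum_add_distrib]
      map_smul' := fun r c => by
        simp only [Pi.smul_apply, smul_eq_mul, mul_smul, Finset.smul_sum, RingHom.id_apply] }
  have hφ : ∀ c, φ c = ∑ i, c i • b i := fun _ => rfl
  have hiso : ∀ c d, hermForm n F q (φ c) (φ d) = hermForm a F q c d := by
    intro c d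
    rw [hφ d, herm_sum_right hF, herm_def]
    refine Finset.sum_congr rfl fun j _ => ?_
    rw [herm_smul_right, hφ, herm_sum_smul_left hb, mul_comm]
  have hinj : Function.Injective φ := by
    intro c d hcd
    rw [← sub_eq_zero]
    apply herm_nondeg hF
    intro v
    rw [← hiso, map_sub, hcd, sub_self, herm_zero_left]
  have hrange : LinearMap.range φ = A := by
    apply le_antisymm
    · rintro _ ⟨c, rfl⟩
      rw [hφ]
      exact A.sum_mem fun i _ => A.smul_mem _ (hbA i)
    · intro v hv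
      exact ⟨fun i => hermForm n F q v (b i),
        (eq_sum_of_orthonormal A (by rw [ha, Fintype.card_fin]) hbA hb hv).symm⟩
  have hex : ∀ i c, ∃ c', φ c' = f i (φ c) := by
    intro i c
    have h1 : f i (φ c) ∈ LinearMap.range φ := by
      rw [hrange]
      apply hs
      rw [← hrange]
      exact ⟨c, rfl⟩
    exact h1
  choose f' hf' using hex
  refine ⟨φ, f', ?_, hinj, hrange, hiso, hf'⟩
  have hiter : ∀ i k c, φ ((f' i)^[k] c) = (f i)^[k] (φ c) := by
    intro i k c
    induction k with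
    | zero => rfl
    | succ k ih => rw [Function.iterate_succ_apply', Function.iterate_succ_apply', hf', ih]
  refine ⟨fun i c v => ?_, fun i v w => ?_, fun i v w => ?_, fun i j v => ?_, fun i => ?_⟩
  · apply hinj
    rw [hf', map_smul, map_smul, h.lin, hf']
  · apply hinj
    rw [hf', map_add, map_add, h.add, hf', hf']
  · rw [← hiso, hf', hf', h.herm, hiso]
  · apply hinj
    rw [hf', hf', hf', hf', h.comm]
  · obtain ⟨m, hm, hmf⟩ := h.ord i
    refine ⟨m, hm, fun v => ?_⟩
    apply hinj
    rw [hiter, hmf]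

theorem S1.up {a : ℕ} {f' : ι → (Fin a → F) → (Fin a → F)} {φ : (Fin a → F) →ₗ[F] (Fin n → F)}
    (hinj : Function.Injective φ) (hiso : ∀ c d, hermForm n F q (φ c) (φ d) = hermForm a F q c d)
    (hφ : ∀ i c, φ (f' i c) = f i (φ c)) (h : S1 q f') : S1 q f := by
  obtain ⟨e, he0, hee, hi⟩ := h
  refine ⟨φ e, ?_, ?_, ?_⟩
  · intro h0
    apply he0
    apply hinj
    rw [h0, map_zero]
  · rw [hiso, hee]
  · intro i
    obtain ⟨c, hc⟩ := hi i
    exact ⟨c, by rw [← hφ, hc, map_smul]⟩

/-- all scalars, dimension at least two -/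
theorem S1_of_scalar (hF : Fintype.card F = q ^ 2) (hn : 2 ≤ n) (h : ∀ i, ScalOn (f i) ⊤) : S1 q f := by
  obtain ⟨e, he0, hee⟩ := exists_sing hF hn
  refine ⟨e, he0, hee, fun i => ?_⟩
  obtain ⟨c, hc⟩ := h i
  exact ⟨c, hc e Submodule.mem_top⟩

/-- consequences of the field case -/
theorem FieldCase.cases [Finite ι] (hF : Fintype.card F = q ^ 2) (hn : 0 < n) (h : FieldCase q f) :
    (∀ i, ScalOn (f i) ⊤) ∨
    (∃ W W' : Submodule F (Fin n → F), TS q W ∧ TS q W' ∧ IsCompl W W' ∧ ∀ i, Stab (f i) W ∧ Stab (f i) W') ∨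
    (∃ (K : Type) (_ : Field K) (_ : Fintype K) (_ : Algebra F K) (_ : Module K (Fin n → F))
      (_ : IsScalarTower F K (Fin n → F)),
      (∀ a : K, ∃ b : K, ∀ v w : Fin n → F, hermForm n F q (a • v) w = hermForm n F q v (b • w)) ∧
      (∀ (i : ι) (a : K) (v : Fin n → F), f i (a • v) = a • f i v) ∧ 1 < Module.finrank F K ∧
      3 ≤ Module.finrank K (Fin n → F)) ∨
    (Odd n ∧ 3 ≤ n ∧ (∀ i, ScalOn (f i) ⊤ ∨ ∀ A : Submodule F (Fin n → F), Stab (f i) A → A = ⊥ ∨ A = ⊤) ∧
      ((∀ i v w, hermForm n F q (f i v) (f i w) = hermForm n F q v w) → ∀ i v, (f i)^[q ^ n + 1] v = v)) := by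
  classical
  obtain ⟨K, i1, i2, i3, i4, i5, hst, hcm, hel, hsub⟩ := h
  obtain ⟨l, m, hnm, hl, hcK, hlK, ψ, hψ⟩ := H398.RC.kstruct hF hn hst
  have hfd : FiniteDimensional F K := Module.Finite.of_finite
  have hmV : finrank K (Fin n → F) = m := by
    rw [← ψ.finrank_eq, finrank_fin_fun]
  by_cases hl1 : l = 1
  · left
    intro i
    obtain ⟨a, ha⟩ := hel i
    rw [hl1] at hlK
    obtain ⟨c, hc⟩ := (finrank_eq_one_iff_of_nonzero' (1 : K) one_ne_zero).1 hlK a
    refine ⟨c, fun v _ => ?_⟩
    rw [ha, ← hc, smul_assoc, one_smul]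
  have hl2 : 1 < l := by
    rcases hl with ⟨k, hk⟩
    omega
  have hm0 : m ≠ 0 := by
    rintro rfl
    omega
  by_cases hm3 : 3 ≤ m
  · right
    right
    left
    exact ⟨K, i1, i2, i3, i4, i5, hst, hcm, by omega, by omega⟩
  by_cases hm1 : m = 1
  · subst hm1
    rw [one_mul] at hnm
    subst hnm
    by_cases hex : ∀ i, ScalOn (f i) ⊤ ∨ ∀ A : Submodule F (Fin n → F), Stab (f i) A → A = ⊥ ∨ A = ⊤
    · right
      right
      right
      refine ⟨hl, by rcases hl with ⟨k, hk⟩; omega, hex, fun hiso => ?_⟩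
      obtain ⟨σ, hadj, halg, hinv⟩ := H398.RC.exists_adj hF hn hst
      obtain ⟨c₀, hc₀⟩ := exists_not_fixed hF
      obtain ⟨Q, hQ, hσQ⟩ := H398.RC.inv_eq_pow σ hinv
        ⟨algebraMap F K c₀, fun h1 => hc₀ ((algebraMap F K).injective (by rw [← halg, h1]))⟩
      have hQn : Q = q ^ n := by
        have h1 : Q ^ 2 = (q ^ n) ^ 2 := by rw [← hQ, hcK]
        exact Nat.pow_left_injective (by norm_num : 2 ≠ 0) h1
      intro i v
      obtain ⟨a, ha⟩ := hel i
      have hone : a ^ (q ^ n + 1) = 1 := by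
        apply H398.RC.smul_unique hF hn (F := F)
        intro v w
        rw [one_smul, ← hQn, pow_succ, ← hσQ, mul_smul, ← hadj, ← ha, ← ha, hiso]
      have hit : ∀ k, (f i)^[k] v = a ^ k • v := by
        intro k
        induction k with
        | zero => rw [Function.iterate_zero, id, pow_zero, one_smul]
        | succ k ih => rw [Function.iterate_succ_apply', ih, ha, smul_smul, ← pow_succ']
      rw [hit, hone, one_smul]
    · right
      right
      left
      push Not at hex
      obtain ⟨i, hi1, A, hA, hAb, hAt⟩ := hex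
      rcases hsub i with h1 | h1 | ⟨K', j1, j2, j3, j4, j5, hst', hcm', h1', h2'⟩
      · exact absurd h1 hi1
      · rcases h1 A hA with h2 | h2
        · exact absurd h2 hAb
        · exact absurd h2 hAt
      · obtain ⟨l', m', hnm', hl', hcK', hlK', ψ', hψ'⟩ := H398.RC.kstruct hF hn hst'
        have hmV' : finrank K' (Fin n → F) = m' := by
          rw [← ψ'.finrank_eq, finrank_fin_fun]
        refine ⟨K', j1, j2, j3, j4, j5, hst', hcm', h1', ?_⟩
        have hoddm : Odd m' := by
          have h3 : Odd (m' * l') := by rw [← hnm']; exact hl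
          exact (Nat.odd_mul.1 h3).1
        rcases hoddm with ⟨k, hk⟩
        omega
  · have hm2 : m = 2 := by omega
    subst hm2
    right
    left
    have hc : Nat.card {x : K // x * x ^ (q ^ l) = -1} = q ^ l + 1 :=
      card_norm_eq hcK (by rw [neg_pow_q hcK, one_pow]) (neg_ne_zero.2 one_ne_zero)
    have hq := two_le hF
    have hql : 0 < q ^ l := pow_pos (by omega) l
    have hnt : Nontrivial {x : K // x * x ^ (q ^ l) = -1} := by
      rw [← Finite.one_lt_card_iff_nontrivial, hc]
      omega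
    obtain ⟨⟨t, ht⟩, ⟨t', ht'⟩, hne⟩ := exists_pair_ne {x : K // x * x ^ (q ^ l) = -1}
    have htt : t ≠ t' := fun h => hne (Subtype.ext h)
    let WW : K → Submodule F (Fin n → F) := fun s =>
      (Submodule.span K {ψ ![1, s]}).restrictScalars F
    have hmem : ∀ s v, v ∈ WW s ↔ ∃ a : K, v = ψ ![a, a * s] := by
      intro s v
      rw [Submodule.restrictScalars_mem, Submodule.mem_span_singleton]
      constructor
      · rintro ⟨a, rfl⟩
        refine ⟨a, ?_⟩
        rw [← map_smul]
        congr 1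
        ext i
        fin_cases i <;> simp
      · rintro ⟨a, rfl⟩
        refine ⟨a, ?_⟩
        rw [← map_smul]
        congr 1
        ext i
        fin_cases i <;> simp
    have hTS : ∀ s : K, s * s ^ (q ^ l) = -1 → TS q (WW s) := by
      intro s hs v hv w hw
      obtain ⟨a, rfl⟩ := (hmem s v).1 hv
      obtain ⟨b, rfl⟩ := (hmem s w).1 hw
      rw [hψ, herm_def, Fin.sum_univ_two]
      have h1 : a * b ^ (q ^ l) + a * s * (b * s) ^ (q ^ l) = 0 := by
        rw [mul_pow]
        linear_combination (a * b ^ (q ^ l)) * hs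
      have h2 : (![a, a * s] : Fin 2 → K) 0 * (![b, b * s] : Fin 2 → K) 0 ^ (q ^ l) +
        (![a, a * s] : Fin 2 → K) 1 * (![b, b * s] : Fin 2 → K) 1 ^ (q ^ l) = 0 := h1
      rw [h2, map_zero]
    refine ⟨WW t, WW t', hTS t ht, hTS t' ht', ?_, ?_⟩
    · constructor
      · rw [Submodule.disjoint_def]
        intro v hv hv'
        obtain ⟨a, rfl⟩ := (hmem t v).1 hv
        obtain ⟨b, hb⟩ := (hmem t' _).1 hv'
        have h1 := ψ.injective hb
        have h2 : a = b := congrFun h1 0
        have h3 : a * t = b * t' := congrFun h1 1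
        subst h2
        have h4 : a = 0 := by
          by_contra ha
          exact htt (mul_left_cancel₀ ha h3)
        subst h4
        have h5 : (![0, 0 * t] : Fin 2 → K) = 0 := by
          ext i
          fin_cases i <;> simp
        rw [h5, map_zero]
      · rw [codisjoint_iff, Submodule.eq_top_iff']
        intro v
        obtain ⟨c, rfl⟩ := ψ.surjective v
        have hd : t' - t ≠ 0 := sub_ne_zero.2 (Ne.symm htt)
        obtain ⟨b, hb⟩ : ∃ b, b = (c 1 - c 0 * t) / (t' - t) := ⟨_, rfl⟩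
        have hb' : b * (t' - t) = c 1 - c 0 * t := by rw [hb, div_mul_cancel₀ _ hd]
        have h1 : c = ![c 0 - b, (c 0 - b) * t] + ![b, b * t'] := by
          ext i
          fin_cases i
          · simp
          · change c 1 = (c 0 - b) * t + b * t'
            linear_combination (-1 : K) * hb'
        rw [h1, map_add]
        exact Submodule.add_mem_sup ((hmem _ _).2 ⟨_, rfl⟩) ((hmem _ _).2 ⟨_, rfl⟩)
    · intro i
      obtain ⟨a, ha⟩ := hel i
      have h1 : ∀ s, Stab (f i) (WW s) := by
        intro s v hv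
        rw [ha]
        exact (Submodule.span K {ψ ![1, s]}).smul_mem a hv
      exact ⟨h1 t, h1 t'⟩

end geo

end Cfsg.Agent.H409.RC
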